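import Cfsg.Agent.XS.DK
import Cfsg.Agent.XS.Root

set_option autoImplicit false
set_option linter.unusedSectionVars false

namespace Cfsg.Agent.XS

open Cfsg Cfsg.Geo Cfsg.Agent.H98 Cfsg.Agent.H99 Matrix
open Cfsg.Agent.N9 (pm dg On pm_apply dg_apply coe_dg pm_dg conj_pm mul_pm_apply pm_mul_apply dg_const)

variable {F : Type*} [Field F] [Fintype F] {ι : Type} [Fintype ι] [DecidableEq ι] {p : ℕ} {ζ : Fˣ}
  {w g : GL I F} {G : Subgroup (GL I F)} {e : ι → I} {v : GL ι F} {Γ K Q P : Subgroup (GL ι F)}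

namespace Blk

/-- Matrices supported on the pairs `k = ± i`. -/
def Bl (g : GL I F) : Prop := ∀ i k : I, k ≠ i → k ≠ -i → (g : Matrix I I F) i k = 0

theorem bl_of_comm (h : Fd F p ζ) (c : g * aa ζ = aa ζ * g) : Bl g := fun i k h1 h2 => by
  have e := congrArg (fun x : GL I F => (x : Matrix I I F) i k) c
  simp only [aa, ad, mul_dg_apply, dg_mul_apply] at e
  by_contra n
  rw [mul_comm] at e
  have e2 := h.ze_inj (Units.ext (mul_right_cancel₀ n e))
  rcases mul_self_eq_mul_self_iff.1 e2 with c | c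
  · exact h1 c
  · exact h2 c

theorem Bl.symm' {g : GL I F} (b : Bl g) {i k : I} (h1 : i ≠ k) (h2 : i ≠ -k) : (g : Matrix I I F) i k = 0 :=
  b i k h1.symm fun c => h2 (by rw [c, neg_neg])

theorem ne_neg {s : I} (hs : s ≠ 0) : s ≠ -s := by revert s; decide

/-- The pair of indices `s`, `-s`. -/
def sg (s : I) : Fin 2 → I := ![s, -s]

theorem sg0 (s : I) : sg s 0 = s := rfl

theorem sg1 (s : I) : sg s 1 = -s := rfl

theorem sg_inj {s : I} (hs : s ≠ 0) : Function.Injective (sg s) := by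
  intro a b
  fin_cases a <;> fin_cases b <;> simp [sg, ne_neg hs, (ne_neg hs).symm]

theorem sum_sg {s : I} (hs : s ≠ 0) {f : I → F} (hf : ∀ l, l ≠ s → l ≠ -s → f l = 0) :
    ∑ l, f l = ∑ c, f (sg s c) := by
  rw [Fin.sum_univ_two, sg0, sg1, ← Finset.sum_pair (ne_neg hs)]
  exact (Finset.sum_subset (Finset.subset_univ _) fun l _ hl => by
    simp only [Finset.mem_insert, Finset.mem_singleton, not_or] at hl
    exact hf l hl.1 hl.2).symm

/-- The centraliser of `a` in `G`. -/
def CC (ζ : Fˣ) (G : Subgroup (GL I F)) : Subgroup (GL I F) := G ⊓ Subgroup.centralizer {aa ζ}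

theorem mem_CC : g ∈ CC ζ G ↔ g ∈ G ∧ g * aa ζ = aa ζ * g := by
  rw [CC, Subgroup.mem_inf, Subgroup.mem_centralizer_singleton_iff]

theorem bl (h : Fd F p ζ) (g : CC ζ G) : Bl (g : GL I F) := bl_of_comm h (mem_CC.1 g.2).2

/-- The block of an element of the centraliser, as a matrix. -/
def βM (h : Fd F p ζ) (G : Subgroup (GL I F)) {s : I} (hs : s ≠ 0) : CC ζ G →* Matrix (Fin 2) (Fin 2) F where
  toFun g := ((g : GL I F) : Matrix I I F).submatrix (sg s) (sg s)
  map_one' := by
    simp only [OneMemClass.coe_one, Units.val_one]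
    exact submatrix_one _ (sg_inj hs)
  map_mul' a b := by
    ext i k
    rw [submatrix_apply, Subgroup.coe_mul, Units.val_mul, Matrix.mul_apply, Matrix.mul_apply, sum_sg hs]
    · rfl
    · intro l h1 h2
      rw [bl h a (sg s i) l, zero_mul]
      · fin_cases i
        · exact h1
        · exact h2
      · fin_cases i
        · exact h2
        · simpa [sg] using h1

/-- The block of an element of the centraliser. -/
def β (h : Fd F p ζ) (G : Subgroup (GL I F)) {s : I} (hs : s ≠ 0) : CC ζ G →* GL (Fin 2) F :=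
  (βM h G hs).toHomUnits

theorem β_apply (h : Fd F p ζ) {s : I} (hs : s ≠ 0) (g : CC ζ G) (i k : Fin 2) :
    (β h G hs g : Matrix (Fin 2) (Fin 2) F) i k = ((g : GL I F) : Matrix I I F) (sg s i) (sg s k) := rfl

theorem off_zero (h2 : (2 : F) ≠ 0) {u : GL (Fin 2) F} (hu : u * u = 1) (hd : GeneralLinearGroup.det u = 1) :
    (u : Matrix (Fin 2) (Fin 2) F) 0 1 = 0 := by
  have e : ∀ i k, ((u : Matrix (Fin 2) (Fin 2) F) * (u : Matrix (Fin 2) (Fin 2) F)) i k =
      (1 : Matrix (Fin 2) (Fin 2) F) i k := fun i k => by rw [← Units.val_mul, hu, Units.val_one]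
  have e00 := e 0 0
  have e01 := e 0 1
  have d := congrArg Units.val hd
  rw [GeneralLinearGroup.val_det_apply, det_fin_two, Units.val_one] at d
  simp only [Matrix.mul_apply, Fin.sum_univ_two, one_apply_eq, one_apply_ne (show (0 : Fin 2) ≠ 1 by decide)] at e00 e01
  apply mul_left_cancel₀ h2
  linear_combination (u : Matrix (Fin 2) (Fin 2) F) 0 0 * e01 - (u : Matrix (Fin 2) (Fin 2) F) 0 1 * e00
    - (u : Matrix (Fin 2) (Fin 2) F) 0 1 * d

theorem mono (b : Bl g)
    (hm : ∀ s : I, s ≠ 0 → ((g : Matrix I I F) s (-s) = 0 ∧ (g : Matrix I I F) (-s) s = 0) ∨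
      ((g : Matrix I I F) s s = 0 ∧ (g : Matrix I I F) (-s) (-s) = 0)) :
    ∃ (t : I → Fˣ) (π : Equiv.Perm I), (∀ i, π i = i ∨ π i = -i) ∧ g = dg t * pm F π := by
  classical
  let f : I → I := fun i => if (g : Matrix I I F) i i = 0 ∧ (g : Matrix I I F) (-i) (-i) = 0 then -i else i
  have hf : Function.Involutive f := fun i => by
    by_cases c : (g : Matrix I I F) i i = 0 ∧ (g : Matrix I I F) (-i) (-i) = 0
    · simp only [f, c, and_self, if_true, neg_neg]
    · simp only [f, c, if_false]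
  have hπ : ∀ i, f i = i ∨ f i = -i := fun i => by
    simp only [f]; split_ifs <;> simp
  obtain ⟨t, ht⟩ := exists_dg (g := g * pm F hf.toPerm) fun i k hik => by
    rw [Units.val_mul, mul_pm_apply, Function.Involutive.coe_toPerm]
    by_cases c : i = -k
    · subst c
      have k0 : k ≠ 0 := fun c => hik (by rw [c, neg_zero])
      by_cases c : (g : Matrix I I F) k k = 0 ∧ (g : Matrix I I F) (-k) (-k) = 0
      · simp only [f, c, and_self, if_true]
      · simp only [f, c, if_false]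
        exact ((hm k k0).resolve_right c).2
    · rcases hπ k with e | e <;> rw [e]
      · exact b.symm' hik c
      · exact b.symm' c (by rwa [neg_neg])
  refine ⟨t, hf.toPerm, hπ, ?_⟩
  rw [← ht, mul_assoc, ← map_mul, show hf.toPerm * hf.toPerm = 1 from Equiv.ext hf, map_one, mul_one]

theorem exists_hm (h : Cl p ζ w G) {s : I} (hs : s ≠ 0)
    (hS : specialLinear (Fin 2) F ≤ ⁅(β h.toFd G hs).range, (β h.toFd G hs).range⁆) :
    ∃ η : Fˣ, η ≠ 1 ∧ hm s η ∈ G := by
  classical
  rw [← map_commutator_eq] at hS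
  have hm1 : (-1 : GL (Fin 2) F) ∈ specialLinear (Fin 2) F := by
    rw [specialLinear, MonoidHom.mem_ker]
    ext; simp [GeneralLinearGroup.val_det_apply, det_fin_two]
  obtain ⟨y, hy, ey⟩ := hS hm1
  have o2 : orderOf (-1 : GL (Fin 2) F) = 2 := by
    refine orderOf_eq_prime (by simp) fun c => h.two_ne ?_
    have := congrArg (fun x : GL (Fin 2) F => (x : Matrix (Fin 2) (Fin 2) F) 0 0) c
    simp only [Units.val_neg, Units.val_one, Matrix.neg_apply, one_apply_eq] at this
    linear_combination -this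
  have d2 : 2 ∣ orderOf y := by rw [← o2, ← ey]; exact orderOf_map_dvd _ _
  have ou : orderOf (y ^ (orderOf y / 2)) = 2 := orderOf_pow_orderOf_div (orderOf_pos y).ne' d2
  set u := y ^ (orderOf y / 2) with hu
  have uc : u ∈ commutator (CC ζ G) := pow_mem hy _
  have uu : u * u = 1 := by rw [← pow_two, ← ou, pow_orderOf_eq_one]
  have u1 : u ≠ 1 := fun c => by rw [c, orderOf_one] at ou; exact absurd ou (by decide)
  obtain ⟨t, ht⟩ := exists_dg (g := (u : GL I F)) fun i k hik => by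
    by_cases c : k = -i
    · subst c
      have i0 : i ≠ 0 := fun c => hik (by rw [c, neg_zero])
      exact off_zero h.two_ne (u := β h.toFd G i0 u) (by rw [← map_mul, uu, map_one])
        (Abelianization.commutator_subset_ker (GeneralLinearGroup.det.comp (β h.toFd G i0)) uc)
    · exact bl h.toFd u i k hik.symm c
  have hdet : GeneralLinearGroup.det (u : GL I F) = 1 :=
    Abelianization.commutator_subset_ker (GeneralLinearGroup.det.comp (CC ζ G).subtype) uc
  have hp : ∏ l, t l = 1 := by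
    apply Units.ext
    have := congrArg Units.val hdet
    rw [GeneralLinearGroup.val_det_apply, ht, coe_dg, det_diagonal] at this
    rwa [Units.coe_prod]
  have tt : t * t = 1 := dg_injective (by
    rw [map_mul, ← ht, ← Subgroup.coe_mul, uu, map_one]; rfl)
  obtain ⟨i, hi⟩ : ∃ i, t i ≠ 1 := by
    by_contra! n
    exact u1 (Subtype.ext (by rw [ht, show t = 1 from funext n, map_one]; rfl))
  refine ⟨t i, hi, ?_⟩
  have := h.th (ht ▸ (mem_CC.1 u.2).1) i s
  have e2 : t i * t i = 1 := congrFun tt i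
  rwa [hp, div_one, show t i ^ 7 = (t i * t i) ^ 3 * t i by rw [← pow_two, ← pow_mul, ← pow_succ], e2, one_pow, one_mul] at this

theorem conj_hm {s : I} (hs : s ≠ 0) (b : Bl g) (η : Fˣ) (h00 : (g : Matrix I I F) s s = 1)
    (h01 : (g : Matrix I I F) s (-s) = 1) (h10 : (g : Matrix I I F) (-s) s = 0)
    (h11 : (g : Matrix I I F) (-s) (-s) = 1) :
    g * hm s η = et (ne_neg hs) (1 - η : F) * (hm s η * g) := by
  refine Units.ext (Matrix.ext fun i k => ?_)
  rw [hm, mul_dg_apply, Units.val_mul, coe_et, add_mul, one_mul, Matrix.add_apply, dg_mul_apply]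
  by_cases hi : i = s
  · subst hi
    rw [single_mul_apply_same, dg_mul_apply, Pi.mulSingle_eq_same, Pi.mulSingle_eq_of_ne (ne_neg hs).symm]
    by_cases hk : k = i
    · subst hk
      rw [Pi.mulSingle_eq_same, h00, h10]; simp
    · rw [Pi.mulSingle_eq_of_ne hk]
      by_cases hk' : k = -i
      · subst hk'
        rw [h01, h11]; simp
      · rw [b i k hk hk', b (-i) k hk' (by rwa [neg_neg])]; simp
  · rw [single_mul_apply_of_ne _ _ _ _ _ hi, Pi.mulSingle_eq_of_ne hi]
    by_cases hk : k = s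
    · subst hk
      by_cases hi' : i = -k
      · subst hi'
        rw [h10]; simp
      · rw [b.symm' hi hi']; simp
    · rw [Pi.mulSingle_eq_of_ne hk]; simp

end Blk

open Blk in
theorem St.blk (h : St p ζ w G) (hg : g ∈ G) (c : g * aa ζ = aa ζ * g) :
    ∃ (t : I → Fˣ) (π : Equiv.Perm I), (∀ i, π i = i ∨ π i = -i) ∧ g = dg t * pm F π := by
  refine mono (bl_of_comm h.toFd c) fun s hs => ?_
  by_contra n
  rw [not_or] at n
  have hx : xx ζ ∈ CC ζ G := mem_CC.2 ⟨h.x, dg_comm _ _⟩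
  have hj : jj F ∈ CC ζ G := mem_CC.2 ⟨h.j, (aa_jj ζ).symm⟩
  have hS : specialLinear (Fin 2) F ≤ ⁅(β h.toFd G hs).range, (β h.toFd G hs).range⁆ := by
    refine h.dk2 (t := fun k => ze ζ (sg s k)) (m := s + s) (fun c => ne_neg hs (eq_neg_of_add_eq_zero_left c))
      ⟨⟨_, hx⟩, Units.ext (Matrix.ext fun i k => ?_)⟩ ?_ ⟨_, ⟨⟨_, hj⟩, rfl⟩, ?_⟩ ⟨_, ⟨⟨_, hj⟩, rfl⟩, ?_⟩
      ⟨_, ⟨⟨g, mem_CC.2 ⟨hg, c⟩⟩, rfl⟩, n⟩
    · rw [β_apply, dg_apply]
      simp only [xx, ad, dg_apply, id, (sg_inj hs).eq_iff]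
    · rw [sg0, sg1, ← h.ze_add, add_neg_cancel_right]
    · rw [β_apply, sg0, sg1]; simp [jj_apply]
    · rw [β_apply, sg0, sg1]; simp [jj_apply]
  obtain ⟨η, h1, hη⟩ := exists_hm h.toCl hs hS
  have hle : ⁅(β h.toFd G hs).range, (β h.toFd G hs).range⁆ ≤ (β h.toFd G hs).range :=
    Subgroup.commutator_le.2 fun a ha b hb => by
      rw [commutatorElement_def]
      exact mul_mem (mul_mem (mul_mem ha hb) (inv_mem ha)) (inv_mem hb)
  obtain ⟨y, ey⟩ := hle (hS (et_mem_sl (show (0 : Fin 2) ≠ 1 by decide) 1))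
  have en : ∀ i k, ((y : GL I F) : Matrix I I F) (sg s i) (sg s k) =
      (if i = k then 1 else 0) + (if 0 = i ∧ 1 = k then 1 else 0) := fun i k => by
    rw [← β_apply h.toFd hs, ey, et_apply]
  have e := conj_hm hs (bl h.toFd y) η (by simpa [sg] using en 0 0) (by simpa [sg] using en 0 1)
    (by simpa [sg] using en 1 0) (by simpa [sg] using en 1 1)
  have yG := (mem_CC.1 y.2).1
  have : et (ne_neg hs) (1 - η : F) ∈ G := by
    rw [← mul_inv_eq_iff_eq_mul.2 e]
    exact mul_mem (mul_mem yG hη) (inv_mem (mul_mem hη yG))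
  exact h1 (Units.ext (sub_eq_zero.1 (h.nr _ _ _ _ this)).symm)

end Cfsg.Agent.XS
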