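import Cfsg.Agent.XS.Zst
import Cfsg.Agent.S0058
import Cfsg.Agent.S0205
import Cfsg.Agent.H46.PAction
import Cfsg.Agent.H49.Core

/-! The field of order eight: the end of the proof. -/

set_option autoImplicit false
set_option linter.unusedSectionVars false

namespace Cfsg.Agent.XS

open Cfsg Cfsg.Geo Cfsg.Agent.H98 Cfsg.Agent.H99 Matrix
open Cfsg.Agent.N9 (pm dg On pm_apply dg_apply coe_dg pm_dg conj_pm mul_pm_apply pm_mul_apply dg_const)

namespace Fin8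

open Subgroup H49

theorem ex_mod {j : ℕ} (h : ¬ 7 ∣ j) (i : ℕ) : ∃ k : ℕ, 7 ∣ i + k * j := by
  have h1 : j % 7 < 7 := Nat.mod_lt _ (by norm_num)
  have h2 : i % 7 < 7 := Nat.mod_lt _ (by norm_num)
  have h3 : ∀ a < 7, ∀ b < 7, b ≠ 0 → ∃ k < 7, (a + k * b) % 7 = 0 := by decide
  obtain ⟨k, -, hk⟩ := h3 _ h2 _ h1 fun e => h (Nat.dvd_of_mod_eq_zero e)
  refine ⟨k, Nat.dvd_of_mod_eq_zero ?_⟩
  rw [Nat.add_mod, Nat.mul_mod, ← Nat.mod_mod j, ← Nat.mul_mod, ← Nat.mod_mod i, ← Nat.add_mod, hk]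

theorem root {X : Type*} [Group X] {x : X} (x7 : x ^ 7 = 1) {j : ℕ} (h : ¬ 7 ∣ j) :
    ∃ k : ℕ, (x ^ j) ^ k = x := by
  obtain ⟨k, m, e⟩ := ex_mod h 6
  refine ⟨k, mul_left_cancel (a := x ^ 6) ?_⟩
  rw [← pow_mul, ← pow_add, mul_comm j, e, pow_mul, x7, one_pow, ← pow_succ, x7]

theorem main {X : Type*} [Group X] [Finite X] {H O : Subgroup X} {x s a w : X} (xH : x ∈ H)
    (sH : s ∈ H) (aH : a ∈ H) (wH : w ∈ H) (xs : Commute x s) (x7 : x ^ 7 = 1) (s7 : s ^ 7 = 1)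
    (ax : a * x * a⁻¹ = x) (as : a * s * a⁻¹ = x ^ 2 * s) (ws : w * s * w⁻¹ = x)
    (wx : w * x * w⁻¹ = s⁻¹) (x1 : x ≠ 1) (c1 : ∀ m, m * x = x * m → m ^ 49 = 1)
    (c2 : ∀ m, m * x = x * m → m * s = s * m → ∃ i j : ℕ, m = x ^ i * s ^ j)
    (hn : H ≤ 𝒩(O)) (ho : Odd (Nat.card O)) (xO : x ∈ O) :
    ∃ M : Subgroup X, H ≤ 𝒩(M) ∧ x ∈ M ∧ s ∈ M ∧ ∀ y ∈ M, ∀ z ∈ M, y * z = z * y := by
  obtain ⟨M, ⟨M1, MO, MN⟩, hmin⟩ := wellFounded_lt.has_min
    {M : Subgroup X | M ≠ ⊥ ∧ M ≤ O ∧ H ≤ 𝒩(M)} ⟨O, fun e => x1 (by rwa [e] at xO), le_rfl, hn⟩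
  have hlt := der_lt_of_solvable (S0205.result (ho.of_dvd_nat (card_dvd_of_le MO))) M1
  have hab : M ≤ 𝒞(M) := commutator_eq_bot_iff.1 (by
    by_contra e
    exact hmin _ ⟨e, hlt.le.trans MO, norm_commutator MN MN⟩ hlt)
  let R : Subgroup X := closure {x, s}
  have RH : R ≤ H := (closure_le _).2 (by rintro _ (rfl | rfl) <;> assumption)
  have xR : x ∈ R := subset_closure (by simp)
  have sR : s ∈ R := subset_closure (by simp)
  have Rc : IsMulCommutative R := isMulCommutative_closure (by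
    rintro _ (rfl | rfl) _ (rfl | rfl)
    exacts [rfl, xs, xs.symm, rfl])
  have cR : ∀ r ∈ 𝒞(R), ∃ i j : ℕ, r = x ^ i * s ^ j := fun r hr =>
    c2 r (mem_centralizer_iff.1 hr x xR).symm (mem_centralizer_iff.1 hr s sR).symm
  have R7 : ∀ r ∈ R, r ^ 7 = 1 := fun r hr => by
    obtain ⟨i, j, rfl⟩ := cR r (abelian_iff.1 Rc hr)
    rw [(xs.pow_pow i j).mul_pow, ← pow_mul, ← pow_mul, mul_comm i, mul_comm j, pow_mul, pow_mul,
      x7, s7, one_pow, one_pow, mul_one]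
  have pR : IsPGroup 7 R := fun r => ⟨1, Subtype.ext (by simpa using R7 r r.2)⟩
  have ak : ∀ k : ℕ, a ^ k * x * (a ^ k)⁻¹ = x ∧ a ^ k * s * (a ^ k)⁻¹ = x ^ (2 * k) * s :=
    fun k => by
      induction k with
      | zero => simp
      | succ k ih =>
        constructor
        · calc _ = a * (a ^ k * x * (a ^ k)⁻¹) * a⁻¹ := by rw [pow_succ']; group
            _ = x := by rw [ih.1, ax]
        · calc _ = a * (a ^ k * s * (a ^ k)⁻¹) * a⁻¹ := by rw [pow_succ']; group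
            _ = _ := by rw [ih.2, ← conj_mul, ← conj_pow, ax, as, ← mul_assoc, ← pow_add, mul_add]
  have lemB : ∀ r ∈ 𝒞(R), r ≠ 1 → ∃ n ∈ H, ∃ k : ℕ, (n * r * n⁻¹) ^ k = x := fun r hr r1 => by
    obtain ⟨i, j, rfl⟩ := cR r hr
    by_cases hj : 7 ∣ j
    · obtain ⟨j, rfl⟩ := hj
      rw [pow_mul, s7, one_pow, mul_one] at r1 ⊢
      obtain ⟨k, hk⟩ := root x7 (j := i) (by
        rintro ⟨i, rfl⟩
        exact r1 (by rw [pow_mul, x7, one_pow]))
      exact ⟨1, one_mem _, k, by simpa using hk⟩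
    obtain ⟨k, m, e⟩ := ex_mod (j := 2 * j) (by omega) i
    obtain ⟨l, hl⟩ := root x7 hj
    refine ⟨w * a ^ k, mul_mem wH (pow_mem aH k), l, ?_⟩
    have : w * a ^ k * (x ^ i * s ^ j) * (w * a ^ k)⁻¹ = x ^ j := by
      calc _ = w * (a ^ k * (x ^ i * s ^ j) * (a ^ k)⁻¹) * w⁻¹ := by group
        _ = w * s ^ j * w⁻¹ := by
          rw [← conj_mul (b := a ^ k), ← conj_pow, ← conj_pow, (ak k).1, (ak k).2,
            (xs.pow_left _).mul_pow, ← mul_assoc (x ^ i), ← pow_mul, ← pow_add,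
            show i + 2 * k * j = 7 * m by rw [← e]; ring, pow_mul, x7, one_pow, one_mul]
        _ = _ := by rw [← conj_pow, ws]
    rw [this, hl]
  by_cases h7 : 7 ∣ Nat.card M
  · obtain ⟨m, ⟨hm, m1⟩, hc⟩ := H46.exists_mem_centralizer_of_invariant_set pR ((M : Set X) \ {1})
      (by
        rw [Nat.card_coe_set_eq, Set.ncard_sdiff_singleton_of_mem (one_mem M)]
        have : 0 < Nat.card M := Nat.card_pos
        change 7 ∣ (M : Set X).ncard at h7
        change 0 < (M : Set X).ncard at this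
        omega)
      fun r hr m hm => ⟨conj_mem_of_norm MN (RH hr) hm.1, fun e => hm.2 (conj_eq_one_iff.1 e)⟩
    obtain ⟨n, hn, k, e⟩ := lemB m hc m1
    have xM : x ∈ M := e ▸ pow_mem (conj_mem_of_norm MN hn hm) k
    exact ⟨M, MN, xM, inv_mem_iff.1 (wx ▸ conj_mem_of_norm MN wH xM), fun y hy z hz =>
      mem_centralizer_iff.1 (hab hz) y hy⟩
  exfalso
  have cop : (Nat.card R).Coprime (Nat.card M) := by
    obtain ⟨n, hn⟩ := IsPGroup.iff_card.1 pR
    rw [hn]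
    exact ((Nat.Prime.coprime_iff_not_dvd (by norm_num)).2 h7).pow_left n
  have ncyc : ¬ IsCyclic R := fun hc => by
    obtain ⟨⟨r, hr⟩, hg⟩ := hc.exists_generator
    obtain ⟨i, hi⟩ := (mem_powers_iff_mem_zpowers.2 (hg ⟨x, xR⟩))
    obtain ⟨j, hj⟩ := (mem_powers_iff_mem_zpowers.2 (hg ⟨s, sR⟩))
    have hi' : r ^ i = x := congrArg Subtype.val hi
    have hj' : r ^ j = s := congrArg Subtype.val hj
    obtain ⟨k, hk⟩ := root (R7 r hr) (j := i) (by
      rintro ⟨i, rfl⟩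
      exact x1 (by rw [← hi', pow_mul, R7 r hr, one_pow]))
    rw [← hj', ← hk, hi', ← pow_mul, ← conj_pow, ax, eq_comm, mul_eq_right] at as
    exact x1 (by
      calc x = x ^ 7 * ((x ^ 2) ^ 3)⁻¹ := by group
        _ = 1 := by rw [x7, as]; simp)
  refine M1 ((S0058.result R M ncyc (RH.trans MN) cop).symm.trans
    (iSup_eq_bot.2 fun r => iSup_eq_bot.2 fun hr => eq_bot_iff.2 fun m hm => ?_))
  obtain ⟨n, -, k, e⟩ := lemB r (abelian_iff.1 Rc hr.1) hr.2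
  have h1 : Commute (n * m * n⁻¹) (n * r * n⁻¹) := by
    change _ * _ = _ * _
    rw [conj_mul, conj_mul, mem_cent1.1 hm.2]
  have h2 := c1 (n * m * n⁻¹) (e ▸ h1.pow_right k)
  rw [conj_pow, conj_eq_one_iff] at h2
  exact orderOf_eq_one_iff.1 (Nat.eq_one_of_dvd_coprimes
    (((Nat.Prime.coprime_iff_not_dvd (by norm_num)).2 h7).pow_left 2) (orderOf_dvd_of_pow_eq_one h2)
    (M.orderOf_dvd_natCard hm.1))

end Fin8

variable {F : Type*} [Field F] [Fintype F] {ι : Type} [Fintype ι] [DecidableEq ι] {p : ℕ} {ζ : Fˣ}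
  {w g : GL I F} {G : Subgroup (GL I F)} {e : ι → I} {v : GL ι F} {Γ K Q P : Subgroup (GL ι F)}

theorem Fin8.pow49 (h : Fe F p ζ) (h8 : Fintype.card F = 8) {m : GL I F}
    (c : m * xx ζ * m⁻¹ * (xx ζ)⁻¹ ∈ scalars I F) : m ^ 49 = 1 := by
  classical
  have u7 : ∀ c : Fˣ, c ^ 7 = 1 := fun c => by
    have := pow_card_eq_one (x := c)
    rwa [Fintype.card_units, h8] at this
  obtain ⟨α, c⟩ := mem_scalars_iff'.1 c
  rw [mul_inv_eq_iff_eq_mul] at c
  have h1 : ∀ n : ℕ, m ^ n * xx ζ * (m ^ n)⁻¹ = scal I (α ^ n) * xx ζ := fun n => by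
    induction n with
    | zero => simp [scal_one]
    | succ n ih =>
      calc _ = m * (m ^ n * xx ζ * (m ^ n)⁻¹) * m⁻¹ := by rw [pow_succ']; group
        _ = scal I (α ^ n) * (m * xx ζ * m⁻¹) := by
          rw [ih, ← mul_assoc m, ← scal_comm]; simp only [mul_assoc]
        _ = _ := by rw [c, pow_succ, scal_mul, mul_assoc]
  have h2 := h1 7
  rw [u7, scal_one, one_mul, mul_inv_eq_iff_eq_mul] at h2
  obtain ⟨t, ht⟩ := exists_dg (g := m ^ 7) fun i k hik => by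
    have e := congrArg (fun g : GL I F => (g : Matrix I I F) i k) h2
    simp only [xx, ad, dg_mul_apply, mul_dg_apply, id] at e
    by_contra e0
    rw [mul_comm] at e
    exact hik (h.ze_inj (Units.ext (mul_right_cancel₀ e0 e))).symm
  rw [show 49 = 7 * 7 from rfl, pow_mul, ht, ← map_pow, ← map_one dg]
  congr 1
  funext i
  exact u7 _

theorem Ce.fin8 (h : Ce p ζ w G) (h8 : Fintype.card F = 8)
    (iso : ∀ g ∈ G, g * jj F * g⁻¹ * jj F = jj F * (g * jj F * g⁻¹) → g * jj F = jj F * g) : G ≤ NN ζ := by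
  classical
  obtain ⟨O, -, -, hn, ho, xO, -⟩ := h.zst iso
  have hZn : (scalars I F).Normal := ⟨fun z hz x => by rwa [← scalars_comm hz, mul_inv_cancel_right]⟩
  let π := QuotientGroup.mk' (scalars I F)
  have k1 : ∀ {y : GL I F}, π y = 1 ↔ y ∈ scalars I F := QuotientGroup.eq_one_iff _
  have k2 : ∀ c, π (scal I c) = 1 := fun c => k1.2 (scal_mem c)
  have k3 : ∀ {y z : GL I F}, π y * π z = π z * π y → y * z * y⁻¹ * z⁻¹ ∈ scalars I F :=
    fun {y z} e => k1.1 (by rw [map_mul, map_mul, map_mul, map_inv, map_inv, e]; group)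
  have e1 : aa ζ * sh F * (aa ζ)⁻¹ = scal I (ze ζ (-1)) * (xx ζ ^ 2 * sh F) := by
    have e : aa ζ * (sh F * aa ζ * (sh F)⁻¹)⁻¹ = scal I (ze ζ (-1)) * xx ζ ^ 2 := by
      rw [aa, ad, sh, pm_dg, ← map_inv, ← map_mul, xx, ad, ← map_pow, ← dg_const, ← map_mul]
      congr 1
      funext i
      rw [Pi.mul_apply, Pi.inv_apply, af_inv_apply, ← h.ze_neg, ← h.ze_add, inv_one, Units.val_one,
        Pi.mul_apply, Pi.pow_apply, h.ze_pow, ← h.ze_add, id]
      congr 1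
      push_cast
      ring
    rw [← mul_assoc, ← e]
    group
  have e2 : w * xx ζ = (sh F)⁻¹ * w := Units.ext (Matrix.ext fun i k => by
    rw [xx, ad, mul_dg_apply, sh, ← map_inv, Units.val_mul, pm_mul_apply, inv_inv, af_apply, h.hw, wM,
      of_apply, of_apply, ← Units.val_mul, ← h.ze_add, Units.val_one, id]
    congr 2
    ring)
  have e3 : w * sh F = xx ζ * w := Units.ext (Matrix.ext fun i k => by
    rw [xx, ad, dg_mul_apply, sh, Units.val_mul, mul_pm_apply, af_apply, h.hw, wM, of_apply,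
      of_apply, ← Units.val_mul, ← h.ze_add, Units.val_one, id]
    congr 2
    ring)
  obtain ⟨M, MN, xM, sM, hM⟩ := Fin8.main (H := G.map π) (O := O.map π) (x := π (xx ζ))
    (s := π (sh F)) (a := π (aa ζ)) (w := π w) ⟨_, h.x, rfl⟩ ⟨_, h.s, rfl⟩ ⟨_, h.a, rfl⟩
    ⟨_, h.wm, rfl⟩
    (by
      change _ * _ = _ * _
      rw [← map_mul, h.x_sh, map_mul, k2, one_mul, map_mul])
    (by rw [← map_pow, xx, h.ad_pow7, map_one]) (by rw [← map_pow, sh_pow7, map_one])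
    (by rw [← map_inv, ← map_mul, ← map_mul, aa, xx, ad, ad, dg_comm, mul_inv_cancel_right])
    (by rw [← map_inv, ← map_mul, ← map_mul, e1, map_mul, k2, one_mul, map_mul, map_pow])
    (by rw [← map_mul, e3, map_mul, mul_inv_cancel_right])
    (by rw [← map_mul, e2, map_mul, mul_inv_cancel_right, map_inv])
    (fun e => absurd (h.ze_inj (dg_mem_scalars.1 (k1.1 e) 0 1)) (by decide))
    (fun m e => by
      obtain ⟨m, rfl⟩ := QuotientGroup.mk'_surjective _ m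
      rw [← map_pow, Fin8.pow49 h.toFe h8 (k3 e), map_one])
    (fun m e e' => by
      obtain ⟨m, rfl⟩ := QuotientGroup.mk'_surjective _ m
      obtain ⟨c, i, j, rfl⟩ := h.mem_RS.1 (h.mem_RS_of_comm (k3 e) (k3 e'))
      exact ⟨i, j, by rw [map_mul, k2, one_mul, map_mul, map_pow, map_pow]⟩)
    (H49.le_norm_iff.2 (by
      rintro _ ⟨g, hg, rfl⟩ _ ⟨y, hy, rfl⟩
      exact ⟨_, hn g hg y hy, by rw [map_mul, map_mul, map_inv]⟩))
    (by rwa [← Subgroup.relIndex_ker, QuotientGroup.ker_mk']) ⟨_, xO, rfl⟩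
  intro g hg
  have k4 : ∀ y, π y ∈ M → g * y * g⁻¹ ∈ RS ζ := fun y hy => by
    have : π (g * y * g⁻¹) ∈ M := by
      rw [map_mul, map_mul, map_inv]
      exact H49.conj_mem_of_norm MN ⟨g, hg, rfl⟩ hy
    exact h.mem_RS_of_comm (k3 (hM _ this _ xM)) (k3 (hM _ this _ sM))
  exact mem_NN (k4 _ xM) (k4 _ sM)

end Cfsg.Agent.XS
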